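import Cfsg.Statements.S1731
import Cfsg.Agent.S0000
import Cfsg.Agent.S1765
import Cfsg.Agent.Omega.Quasithin.Table
import Cfsg.Agent.StrQ.Main

set_option autoImplicit false
open Cfsg

namespace Cfsg.Agent.S1731

/-- Let G be a non-abelian finite simple group such that, for every odd prime p, every elementary abelian p-subgroup of G has order at most p², and suppose G is not of even characteristic (some 2-local subgroup M containing a Sylow 2-subgroup of G fails C_M(O₂(M)) ≤ O₂(M)). Then G is isomorphic to the alternating group of degree 7, to the first Janko group, or, for some prime p ≥ 5, to a projective special linear group of dimension 2 over a field with p or p² elements, a projective special linear group of dimension 3 over the field with p elements, or a projective special unitary group of dimension 3 over the field with p² elements. -/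
theorem result {G : Type*} [Group G] [Finite G] [IsSimpleGroup G]
    (hG : ¬ IsMulCommutative G) (hq : ∀ p : ℕ, p.Prime → p ≠ 2 → Cfsg.PRankLE p 2 G)
    (hE : ¬ Cfsg.IsOfEvenCharacteristic G) :
    Nonempty (G ≃* alternatingGroup (Fin 7)) ∨ Cfsg.Spor.IsoJ1 G ∨
      ∃ p : ℕ, p.Prime ∧ 5 ≤ p ∧ ∃ (F : Type) (_ : Field F) (_ : Fintype F),
        ((Fintype.card F = p ∨ Fintype.card F = p ^ 2) ∧ Nonempty (G ≃* Matrix.ProjectiveSpecialLinearGroup (Fin 2) F)) ∨
        (Fintype.card F = p ∧ Nonempty (G ≃* Matrix.ProjectiveSpecialLinearGroup (Fin 3) F)) ∨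
        (Fintype.card F = p ^ 2 ∧ Nonempty (G ≃* Cfsg.PSU 3 F p)) := by
  exact Cfsg.Agent.StrQ.main (fun _ _ _ _ h1 h2 h3 => Cfsg.Agent.S1765.result h1 h2 h3)
    Cfsg.Agent.Omega.Quasithin.rows hG (fun _ _ _ _ _ _ _ => Cfsg.Agent.S0000.result) hq hE

end Cfsg.Agent.S1731
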